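import Groth.Agent.Sga1.UlaSL
import Groth.Prelude.Def_Found
import Groth.Agent.S0599
import Groth.Agent.S2046
import Groth.Agent.S0541
import Groth.Agent.S0538
import Groth.Agent.Ega4B.GRingLoc
import Mathlib.RingTheory.RegularLocalRing.Defs
import Mathlib.RingTheory.KrullDimension.Regular
import Mathlib.RingTheory.Polynomial.Basic
import Mathlib.RingTheory.Localization.AtPrime.Basic

set_option autoImplicit false
universe u

open IsLocalRing Polynomial

namespace Groth.Agent.Sga7.H640.AddVar

section Alg

variable (R : Type u) [CommRing R] [IsLocalRing R]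

/-- Evaluation at `0` followed by the residue map. -/
noncomputable def psi : R[X] →+* ResidueField R := (residue R).comp (evalRingHom 0)

/-- The ideal `(m, X)` of `R[X]`. -/
noncomputable def nn : Ideal R[X] := RingHom.ker (psi R)

instance nn_isPrime : (nn R).IsPrime := RingHom.ker_isPrime _

variable {R}

theorem mem_nn (f : R[X]) : f ∈ nn R ↔ f.eval 0 ∈ maximalIdeal R := by
  rw [nn, RingHom.mem_ker, psi, RingHom.comp_apply, residue_eq_zero_iff]
  rfl

theorem not_mem_nn (f : R[X]) : f ∉ nn R ↔ IsUnit (f.eval 0) := by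
  rw [mem_nn, mem_maximalIdeal, mem_nonunits_iff, not_not]

theorem nn_eq_span {c : ℕ} (t : Fin c → R) (ht : Ideal.span (Set.range t) = maximalIdeal R) :
    nn R = Ideal.span (Set.range (Fin.snoc (fun i => C (t i)) X : Fin (c + 1) → R[X])) := by
  have hr : Set.range (Fin.snoc (fun i => C (t i)) X : Fin (c + 1) → R[X]) =
      Set.range (fun i => (C (t i) : R[X])) ∪ {X} := by
    ext f
    constructor
    · rintro ⟨i, rfl⟩
      refine Fin.lastCases ?_ (fun j => ?_) i
      · right; simp
      · left; exact ⟨j, by simp⟩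
    · rintro (⟨j, rfl⟩ | rfl)
      · exact ⟨Fin.castSucc j, by simp⟩
      · exact ⟨Fin.last c, by simp⟩
  rw [hr, Ideal.span_union]
  have h1 : Ideal.span (Set.range fun i => (C (t i) : R[X])) = (maximalIdeal R).map C := by
    rw [← ht, Ideal.map_span, ← Set.range_comp]; rfl
  rw [h1]
  apply le_antisymm
  · intro f hf
    rw [mem_nn] at hf
    have h2 : f = (f - C (f.eval 0)) + C (f.eval 0) := by ring
    rw [h2]
    refine add_mem (Ideal.mem_sup_right ?_) (Ideal.mem_sup_left (Ideal.mem_map_of_mem _ hf))
    rw [Ideal.mem_span_singleton]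
    rw [X_dvd_iff]
    simp [coeff_zero_eq_eval_zero]
  · rw [sup_le_iff, Ideal.map_le_iff_le_comap, Ideal.span_singleton_le_iff_mem]
    refine ⟨fun r hr => ?_, ?_⟩
    · rw [Ideal.mem_comap, mem_nn]; simpa using hr
    · rw [mem_nn]; simp

variable (A : Type u) [CommRing A] [Algebra R[X] A] [IsLocalization.AtPrime A (nn R)]

theorem isUnit_eval (y : (nn R).primeCompl) : IsUnit (evalRingHom (0 : R) y) :=
  (not_mem_nn y.1).1 y.2

/-- Evaluation at `0` on the localization. -/
noncomputable def ev : A →+* R :=
  IsLocalization.lift (M := (nn R).primeCompl) (g := evalRingHom (0 : R)) isUnit_eval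

theorem ev_algebraMap (f : R[X]) : ev A (algebraMap R[X] A f) = f.eval 0 := by
  rw [ev, IsLocalization.lift_eq]; rfl

theorem ev_surjective : Function.Surjective (ev (R := R) A) := fun r =>
  ⟨algebraMap R[X] A (C r), by rw [ev_algebraMap]; simp⟩

theorem ker_ev : RingHom.ker (ev (R := R) A) = Ideal.span {algebraMap R[X] A X} := by
  apply le_antisymm
  · intro a ha
    obtain ⟨f, s, rfl⟩ := IsLocalization.exists_mk'_eq (nn R).primeCompl a
    rw [RingHom.mem_ker, ev, IsLocalization.lift_mk'] at ha
    have h1 : f.eval 0 = 0 := (Units.mul_left_eq_zero _).1 ha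
    have h2 : X ∣ f := by rw [X_dvd_iff, coeff_zero_eq_eval_zero]; exact h1
    obtain ⟨g, rfl⟩ := h2
    rw [Ideal.mem_span_singleton]
    refine ⟨IsLocalization.mk' A g s, ?_⟩
    rw [← IsLocalization.mul_mk'_eq_mk'_of_mul]
  · rw [Ideal.span_singleton_le_iff_mem, RingHom.mem_ker, ev_algebraMap]; simp

theorem ringKrullDim_loc [IsLocalRing A] [IsNoetherianRing A] :
    ringKrullDim A = ringKrullDim R + 1 := by
  have h1 : IsSMulRegular A (algebraMap R[X] A X) := by
    have h2 : (X : R[X]) ∈ nonZeroDivisors R[X] := by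
      exact Polynomial.X_mem_nonzeroDivisors
    have h3 := IsLocalization.map_nonZeroDivisors_le (nn R).primeCompl A
      (Submonoid.mem_map_of_mem (algebraMap R[X] A) h2)
    exact fun a b hab => (mul_cancel_left_mem_nonZeroDivisors h3).1 hab
  have h4 : algebraMap R[X] A X ∈ Ring.jacobson A := by
    rw [IsLocalRing.ringJacobson_eq_maximalIdeal]
    rw [mem_maximalIdeal, mem_nonunits_iff]
    intro h
    have h5 := h.map (ev (R := R) A)
    rw [ev_algebraMap] at h5
    simp at h5
  rw [← ringKrullDim_quotient_span_singleton_succ_eq_ringKrullDim_of_mem_jacobson h1 h4]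
  congr 1
  rw [← ker_ev]
  exact ringKrullDim_eq_of_ringEquiv
    (RingHom.quotientKerEquivOfSurjective (ev_surjective A))

end Alg

open CategoryTheory AlgebraicGeometry Groth.Agent.Etrest.StrictLoc Groth.Agent.Sga1.UlaSL

theorem exists_step (k : Type u) [Field k] [IsAlgClosed k] [CharZero k] (R : Type u) [CommRing R]
    [IsRegularLocalRing R] [HenselianLocalRing R] [Algebra k R]
    (hk : Function.Bijective (algebraMap k (ResidueField R))) (hG : CAlg.IsGRing R)
    (c : ℕ) (t : Fin c → R) (ht : Ideal.span (Set.range t) = maximalIdeal R)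
    (hd : ringKrullDim R = c) :
    ∃ (C : Type u) (_ : CommRing C) (_ : IsRegularLocalRing C) (_ : HenselianLocalRing C)
      (_ : Algebra k C) (φ : R →ₐ[k] C) (T : C),
      IsLocalHom φ.toRingHom ∧ T ∈ maximalIdeal C ∧
      Etrest.StrictLoc.IsStrictLoc
        (Spec.map (CommRingCat.ofHom (Polynomial.eval₂RingHom φ.toRingHom T))) ∧
      Function.Bijective (algebraMap k (ResidueField C)) ∧ CAlg.IsGRing C ∧
      Ideal.span (Set.range (Fin.snoc (fun i => φ (t i)) T : Fin (c + 1) → C)) = maximalIdeal C ∧
      ringKrullDim C = (c + 1 : ℕ) := by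
  let x : Spec (CommRingCat.of R[X]) := ⟨nn R, nn_isPrime R⟩
  obtain ⟨C', _, _, τ, hτ, hx⟩ := exists_isStrictLoc (Spec (CommRingCat.of R[X])) x
  obtain ⟨alg, loc, sh, hspec⟩ := exists_specOf hτ x hx
  have := hτ.henselian
  let g : R[X] →+* C' := (Spec.preimage τ).hom
  have hg : Spec.map (CommRingCat.ofHom g) = τ := Spec.map_preimage τ
  let A := (Spec (CommRingCat.of R[X])).presheaf.stalk x
  let algA : Algebra R[X] A := (StructureSheaf.toStalk R[X] x).hom.toAlgebra
  have locA : IsLocalization.AtPrime A (nn R) := StructureSheaf.IsLocalization.to_stalk R[X] x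
  have hgA : g = (algebraMap A C').comp (algebraMap R[X] A) := by
    rw [← spm_inj]
    refine hg.trans (hspec.symm.trans ?_)
    rw [Hens2.specOf, spm_comp, Spec.fromSpecStalk_eq']
    rfl
  have hgA' (f : R[X]) : g f = algebraMap A C' (algebraMap R[X] A f) := by rw [hgA]; rfl
  let φ₀ : R →+* C' := g.comp C
  let algk : Algebra k C' := (φ₀.comp (algebraMap k R)).toAlgebra
  let φ : R →ₐ[k] C' := { φ₀ with commutes' := fun _ => rfl }
  have hφ (r : R) : φ r = g (C r) := rfl
  have hev : Polynomial.eval₂RingHom φ.toRingHom (g X) = g := by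
    refine Polynomial.ringHom_ext (fun a => ?_) ?_
    · rw [coe_eval₂RingHom, eval₂_C]; rfl
    · rw [coe_eval₂RingHom, eval₂_X]
  -- noetherian, G-ring
  have hGP : CAlg.IsGRing R[X] := Groth.Agent.S0599.result R hG R[X]
  have hGA : CAlg.IsGRing A :=
    Groth.Agent.Ega4B.GRingLoc.isGRing_of_isLocalization R[X] A (nn R).primeCompl hGP
  have hNA : IsNoetherianRing A := hGA.1
  have hGC : CAlg.IsGRing C' := Groth.Agent.S2046.result (R := A) hGA
  have hNC : IsNoetherianRing C' := hGC.1
  -- dimension
  have hdC : ringKrullDim C' = (c + 1 : ℕ) := by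
    rw [Groth.Agent.S0541.result A C', ringKrullDim_loc (R := R) A, hd]
    norm_cast
  -- the maximal ideal
  have hmA : (nn R).map (algebraMap R[X] A) = maximalIdeal A :=
    IsLocalization.AtPrime.map_eq_maximalIdeal (nn R) A
  have hmC : Ideal.span (Set.range (Fin.snoc (fun i => φ (t i)) (g X) : Fin (c + 1) → C')) =
      maximalIdeal C' := by
    rw [← Groth.Agent.S0538.result A C', ← hmA, Ideal.map_map, ← hgA, nn_eq_span t ht,
      Ideal.map_span, ← Set.range_comp]
    congr 2
    funext i
    refine Fin.lastCases ?_ (fun j => ?_) i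
    · simp
    · simp [hφ]
  have hreg : IsRegularLocalRing C' := by
    refine IsRegularLocalRing.of_spanFinrank_maximalIdeal_le C' ?_
    rw [hdC, ← hmC]
    have h1 := Submodule.spanFinrank_span_le_ncard_of_finite (R := C')
      (Set.finite_range (Fin.snoc (fun i => φ (t i)) (g X) : Fin (c + 1) → C'))
    have h2 : (Set.range (Fin.snoc (fun i => φ (t i)) (g X) : Fin (c + 1) → C')).ncard ≤ c + 1 := by
      rw [← Set.image_univ]
      refine (Set.ncard_image_le Set.finite_univ).trans ?_
      simp
    exact_mod_cast h1.trans h2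
  refine ⟨C', inferInstance, hreg, inferInstance, algk, φ, g X, ?_, ?_, ?_, ?_, hGC, hmC, hdC⟩
  · constructor
    intro r hr
    have h1 : IsUnit (algebraMap A C' (algebraMap R[X] A (C r))) := by
      rw [← hgA']; exact hr
    have h2 := (isUnit_map_iff (algebraMap A C') _).1 h1
    have h3 := (IsLocalization.AtPrime.isUnit_to_map_iff A (nn R) (C r)).1 h2
    have h4 := (not_mem_nn (C r)).1 h3
    simpa using h4
  · rw [← hmC]
    exact Ideal.subset_span ⟨Fin.last c, by simp⟩
  · rw [hev, hg]; exact hτ
  · refine ⟨(algebraMap k (ResidueField C')).injective, ?_⟩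
    let i₁ : k →+* ResidueField A := (residue A).comp ((algebraMap R[X] A).comp (C.comp (algebraMap k R)))
    have hi₁ : Function.Surjective i₁ := by
      intro y
      obtain ⟨a, rfl⟩ := residue_surjective y
      obtain ⟨z, hz⟩ := hk.2 (residue R (ev A a))
      refine ⟨z, ?_⟩
      have hloc : IsLocalHom (ev (R := R) A) := IsLocalHom.of_surjective _ (ev_surjective A)
      have e1 : algebraMap k R z - ev A a ∈ maximalIdeal R := by
        rw [← residue_eq_zero_iff, map_sub, sub_eq_zero, ← hz]
        rfl
      have e2 : algebraMap R[X] A (C (algebraMap k R z)) - a ∈ maximalIdeal A := by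
        rw [mem_maximalIdeal, mem_nonunits_iff]
        intro h
        have h5 := h.map (ev (R := R) A)
        rw [map_sub, ev_algebraMap, eval_C] at h5
        exact (mem_nonunits_iff.1 ((mem_maximalIdeal _).1 e1)) h5
      rw [← residue_eq_zero_iff, map_sub, sub_eq_zero] at e2
      exact e2
    have h1 : SepAlg i₁ := by
      intro y
      obtain ⟨a, rfl⟩ := hi₁ y
      exact ⟨X - C a, separable_X_sub_C, by simp⟩
    have h2 : SepAlg (algebraMap (ResidueField A) (ResidueField C')) := by
      have := sh.isSepClosure.separable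
      exact (sepAlg_iff _ _).2 this
    have h3 := (h1.comp h2).surjective
    have h4 : (algebraMap (ResidueField A) (ResidueField C')).comp i₁ =
        algebraMap k (ResidueField C') := by
      ext z
      have : algebraMap k C' z = algebraMap A C' (algebraMap R[X] A (C (algebraMap k R z))) :=
        hgA' _
      rw [IsScalarTower.algebraMap_apply k C' (ResidueField C'), this]
      rfl
    rw [← h4]
    exact h3

end Groth.Agent.Sga7.H640.AddVar
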